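import Mathlib
import Cfsg.Agent.S4709
import Cfsg.Agent.S0135
import Cfsg.Agent.Lib.Helper17.Basic
import Cfsg.Agent.S0904
import Cfsg.Agent.Lib.Helper78.DefectZero
import Cfsg.Agent.Lib.Helper80.Linear

/-!
# The principal block for a Sylow subgroup of prime order with automizer of prime order

A numerical digest of `S4709`, used to exclude orders of simple groups.
-/

set_option autoImplicit false

namespace Cfsg.Agent.Lib.Helper61.BrauerPrime

open Cfsg Cfsg.Agent.Lib.Helper74 Subgroup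

variable {G : Type*} [Group G] [Finite G]

/-- degrees of irreducible characters -/
theorem deg_facts (χ : IrrCharacter G) :
    ((charDegree (χ : G → ℂ) : ℕ) : ℂ) = (χ : G → ℂ) 1 ∧ charDegree (χ : G → ℂ) ∣ Nat.card G := by
  refine ⟨IsCharacter.charDegree_eq (IrrCharacter.isCharacter χ), ?_⟩
  obtain ⟨χ, n, ρ, hirr, rfl⟩ := χ
  have := Cfsg.Agent.S0135.result ρ
  simp only [charDegree_rep]
  simpa using this

/-- a character constant (`= a`) on the nonidentity elements of a subgroup of order `p` -/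
theorem deg_congr (p : ℕ) (P : Subgroup G) (hP : Nat.card P = p) (χ : G → ℂ) (hχ : IsCharacter G χ)
    (a : ℤ) (ha : ∀ y ∈ P, y ≠ 1 → χ y = (a : ℂ)) :
    (p : ℤ) ∣ (charDegree χ : ℤ) - a := by
  classical
  have := Fintype.ofFinite P
  obtain ⟨k, hk⟩ := IsCharacter.classInner_irr_nat (IsCharacter.restrict hχ P)
    ⟨fun _ => 1, isIrrCharacter_one⟩
  unfold Cfsg.classInner at hk
  have hc : (Nat.card P : ℂ) ≠ 0 := by
    exact_mod_cast (Nat.card_pos (α := P)).ne'
  have hs : ∑ g : P, χ g * (starRingEnd ℂ) ((1 : ℂ)) = χ 1 + ((p : ℂ) - 1) * a := by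
    rw [← Finset.add_sum_erase _ _ (Finset.mem_univ (1 : P))]
    congr 1
    · simp
    · rw [Finset.sum_congr rfl (g := fun _ => (a : ℂ))]
      · rw [Finset.sum_const, Finset.card_erase_of_mem (Finset.mem_univ _), Finset.card_univ,
          ← Nat.card_eq_fintype_card, hP, nsmul_eq_mul]
        have hp1 : 1 ≤ p := by rw [← hP]; exact Nat.card_pos
        push_cast [Nat.cast_sub hp1]
        ring
      · intro g hg
        have : g ≠ 1 := Finset.ne_of_mem_erase hg
        rw [ha g g.2 (fun h => this (Subtype.ext h))]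
        simp
  have hk' : (Nat.card P : ℂ)⁻¹ * ∑ g : P, χ g * (starRingEnd ℂ) ((1 : ℂ)) = k := hk
  rw [hs, hP, ← IsCharacter.charDegree_eq hχ] at hk'
  rw [hP] at hc
  have h2 : ((charDegree χ : ℤ) : ℂ) - a = (((p : ℤ) * ((k : ℤ) - a) : ℤ) : ℂ) := by
    push_cast
    field_simp at hk'
    linear_combination hk'
  refine ⟨(k : ℤ) - a, ?_⟩
  have h3 : (((charDegree χ : ℤ) - a : ℤ) : ℂ) = (((p : ℤ) * ((k : ℤ) - a) : ℤ) : ℂ) := by
    push_cast
    push_cast at h2
    exact h2
  exact_mod_cast h3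

/-- in a nonabelian simple group only the principal character has degree one -/
theorem eq_one_of_deg_one [IsSimpleGroup G] (hG : ¬ IsMulCommutative G) (χ : IrrCharacter G)
    (h : charDegree (χ : G → ℂ) = 1) : (χ : G → ℂ) = fun _ => 1 := by
  have h1 : (χ : G → ℂ) 1 = 1 := by rw [← (deg_facts χ).1, h]; simp
  obtain ⟨f, hf⟩ := Cfsg.Agent.Lib.Helper80.exists_hom_of_degree_one (IrrCharacter.isCharacter χ) h1
  funext g
  rw [hf, Cfsg.Agent.Lib.Helper17.hom_comm_trivial hG f g]
  simp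

/-- numerical digest of `S4709` for a Sylow subgroup of prime order -/
theorem digest (p m : ℕ) [Fact p.Prime] (hm : m.Prime) (hmp : m + 1 < p) (P : Sylow p G)
    (hP : Nat.card P = p)
    (hCN : (centralizer ((P : Subgroup G) : Set G)).relIndex (normalizer ((P : Subgroup G) : Set G)) = m) :
    ∃ (X : Finset (IrrCharacter G)) (a : IrrCharacter G → ℤ) (d δ : ℤ) (η χ₁ : IrrCharacter G),
      χ₁ ∈ X ∧ (χ₁ : G → ℂ) = (fun _ => 1) ∧ a χ₁ = 1 ∧ (δ = 1 ∨ δ = -1) ∧
      (∀ χ ∈ X, a χ ≠ 0 ∧ (p : ℤ) ∣ (charDegree (χ : G → ℂ) : ℤ) - a χ) ∧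
      ((d - δ) ^ 2 + (((p : ℤ) - 1) / m - 1) * d ^ 2 + ∑ χ ∈ X, a χ ^ 2 = (m : ℤ) + 1) ∧
      ((((p - 1) / m : ℕ) : ℤ) * d - δ) * (charDegree (η : G → ℂ) : ℤ) +
        ∑ χ ∈ X, a χ * (charDegree (χ : G → ℂ) : ℤ) = 0 := by
  classical
  have hp : p.Prime := Fact.out
  obtain ⟨M, hM⟩ := Cfsg.Agent.Lib.Helper78.exists_isPModular p hp
  have hcycP : IsCyclic ↥(P : Subgroup G) := isCyclic_of_prime_card hP
  have hab : IsMulCommutative P := ⟨⟨fun a b => by
    let _ := hcycP.commGroup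
    exact mul_comm a b⟩⟩
  have hCle : centralizer ((P : Subgroup G) : Set G) ≤ normalizer ((P : Subgroup G) : Set G) :=
    Subgroup.centralizer_le_normalizer _
  have hpow : ∀ y ∈ (P : Subgroup G), y ≠ 1 → ∀ w ∈ (P : Subgroup G), w ∈ zpowers y := by
    intro y hy hy1 w hw
    have h1 : (⟨w, hw⟩ : (P : Subgroup G)) ∈ zpowers (⟨y, hy⟩ : (P : Subgroup G)) :=
      mem_zpowers_of_prime_card hP (fun h => hy1 (congrArg Subtype.val h))
    obtain ⟨k, hk⟩ := h1
    exact ⟨k, by simpa using congrArg Subtype.val hk⟩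
  have hcyc : ∃ g : G, g ∈ normalizer ((P : Subgroup G) : Set G) ∧
      centralizer ((P : Subgroup G) : Set G) ⊔ zpowers g = normalizer ((P : Subgroup G) : Set G) := by
    have hnot : ¬ normalizer ((P : Subgroup G) : Set G) ≤ centralizer ((P : Subgroup G) : Set G) := by
      intro h
      rw [← Subgroup.relIndex_eq_one, hCN] at h
      exact hm.one_lt.ne' h
    obtain ⟨g, hgN, hgC⟩ := SetLike.not_le_iff_exists.1 hnot
    refine ⟨g, hgN, ?_⟩
    have hKN : centralizer ((P : Subgroup G) : Set G) ⊔ zpowers g ≤ normalizer ((P : Subgroup G) : Set G) :=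
      sup_le hCle (by rwa [zpowers_le])
    have hmul := Subgroup.relIndex_mul_relIndex _ _ _ (le_sup_left (b := zpowers g)) hKN
    rw [hCN] at hmul
    have h1 : (centralizer ((P : Subgroup G) : Set G)).relIndex
        (centralizer ((P : Subgroup G) : Set G) ⊔ zpowers g) ≠ 1 := by
      intro h
      rw [Subgroup.relIndex_eq_one] at h
      exact hgC (h (le_sup_right (a := centralizer ((P : Subgroup G) : Set G)) (mem_zpowers g)))
    have h2 := (Nat.dvd_prime hm).1 ⟨_, hmul.symm⟩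
    have h3 := h2.resolve_left h1
    rw [h3] at hmul
    have h4 : (centralizer ((P : Subgroup G) : Set G) ⊔ zpowers g).relIndex
        (normalizer ((P : Subgroup G) : Set G)) = 1 := by
      have := hm.pos
      nlinarith
    rw [Subgroup.relIndex_eq_one] at h4
    exact le_antisymm hKN h4
  have hfrob : ∀ y : G, y ∈ (P : Subgroup G) → y ≠ 1 →
      centralizer ({y} : Set G) ⊓ normalizer ((P : Subgroup G) : Set G) =
        centralizer ((P : Subgroup G) : Set G) := by
    intro y hy hy1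
    apply le_antisymm
    · intro x hx0
      have hx := (Subgroup.mem_inf.1 hx0).1
      rw [mem_centralizer_singleton_iff] at hx
      rw [mem_centralizer_iff]
      intro w hw
      obtain ⟨k, rfl⟩ := hpow y hy hy1 w hw
      have : Commute x y := hx
      exact ((this.zpow_right k).eq).symm
    · refine le_inf ?_ hCle
      exact Subgroup.centralizer_le (Set.singleton_subset_iff.2 hy)
  obtain ⟨s, X, Y, -, -, -, -, hYc, ⟨χ₁, hχ₁X, hχ₁⟩, a, d, δ, ζ, hδ, hX, -, -, -, -, hnorm, -, hrel⟩ :=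
    Cfsg.Agent.S4709.result p M hM P hab (by rw [hP]; exact hp.one_lt.ne') m hm.one_lt
      (by rw [hP]; exact hmp) hCN hcyc hfrob
  -- a nonidentity element of `P`
  obtain ⟨y, hy, hy1⟩ : ∃ y ∈ (P : Subgroup G), y ≠ 1 := by
    have : Nontrivial ↥(P : Subgroup G) := by
      rw [← Finite.one_lt_card_iff_nontrivial, hP]; exact hp.one_lt
    obtain ⟨y, hy⟩ := exists_ne (1 : ↥(P : Subgroup G))
    exact ⟨y, y.2, fun h => hy (Subtype.ext h)⟩
  have hpp : ∀ y ∈ (P : Subgroup G), y ≠ 1 → IsPPart p y y := by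
    intro y hy hy1
    refine ⟨1, mul_one y, Commute.one_right y, ⟨1, ?_⟩, ?_⟩
    · rw [pow_one]
      have h1 : orderOf (⟨y, hy⟩ : (P : Subgroup G)) = p :=
        orderOf_eq_card_of_forall_mem_zpowers (fun w => mem_zpowers_of_prime_card hP
          (fun h => hy1 (congrArg Subtype.val h))) |>.trans hP
      rwa [← Subgroup.orderOf_coe] at h1
    · rw [orderOf_one]; exact hp.one_lt.ne' ∘ Nat.dvd_one.1
  have hYne : Y.Nonempty := by
    by_contra h
    rw [Set.not_nonempty_iff_eq_empty] at h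
    rw [h, hP] at hYc
    simp only [Set.mem_empty_iff_false, Nat.card_of_isEmpty] at hYc
    have h1 : m ≤ p - 1 := by omega
    have := Nat.div_pos h1 hm.pos
    omega
  obtain ⟨η, hη⟩ := hYne
  refine ⟨X.toFinite.toFinset, a, d, δ, η, χ₁, by simpa using hχ₁X, hχ₁, ?_, hδ, ?_, ?_, ?_⟩
  · have h1 := (hX χ₁ hχ₁X).2 y y (hpp y hy hy1) hy hy1
    rw [hχ₁] at h1
    have h2 : ((1 : ℤ) : ℂ) = (a χ₁ : ℂ) := by simpa using h1
    exact_mod_cast h2.symm
  · intro χ hχ
    have hχX : χ ∈ X := by simpa using hχ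
    refine ⟨(hX χ hχX).1, ?_⟩
    apply deg_congr p (P : Subgroup G) hP _ (IrrCharacter.isCharacter χ)
    intro w hw hw1
    exact (hX χ hχX).2 w w (hpp w hw hw1) hw hw1
  · rw [finsum_mem_eq_finite_toFinset_sum _ X.toFinite, hP] at hnorm
    exact hnorm
  · have h1 := hrel η hη 1 (by rw [orderOf_one]; exact hp.one_lt.ne' ∘ Nat.dvd_one.1)
    rw [finsum_mem_eq_finite_toFinset_sum _ X.toFinite, hP, ← (deg_facts η).1] at h1
    have h2 : ∑ χ ∈ X.toFinite.toFinset, (a χ : ℂ) * (χ : G → ℂ) 1 =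
        ((∑ χ ∈ X.toFinite.toFinset, a χ * (charDegree (χ : G → ℂ) : ℤ) : ℤ) : ℂ) := by
      push_cast
      apply Finset.sum_congr rfl
      intro χ _
      rw [← (deg_facts χ).1]
    rw [h2] at h1
    have h3 : (((((((p - 1) / m : ℕ) : ℤ) * d - δ) * (charDegree (η : G → ℂ) : ℤ) +
        ∑ χ ∈ X.toFinite.toFinset, a χ * (charDegree (χ : G → ℂ) : ℤ) : ℤ)) : ℂ) = ((0 : ℤ) : ℂ) := by
      push_cast
      push_cast at h1
      exact h1
    exact_mod_cast h3

/-- the automizer of a Sylow `r`-subgroup in a simple group of order `p^a q^b r` -/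
theorem relIndex_facts [IsSimpleGroup G]
    (p q r a b : ℕ) (hp : p.Prime) (hq : q.Prime) [Fact r.Prime] (hpq : p ≠ q) (hpr : p ≠ r) (hqr : q ≠ r)
    (hcard : Nat.card G = p ^ a * q ^ b * r) (hne : Nat.card G ≠ r) (S : Sylow r G) :
    Nat.card S = r ∧
    (centralizer ((S : Subgroup G) : Set G)).relIndex (normalizer ((S : Subgroup G) : Set G)) ≠ 1 ∧
    (centralizer ((S : Subgroup G) : Set G)).relIndex (normalizer ((S : Subgroup G) : Set G)) ∣ r - 1 ∧
    Nat.card (Sylow r G) *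
      ((centralizer ((S : Subgroup G) : Set G)).relIndex (normalizer ((S : Subgroup G) : Set G)) * r) =
        Nat.card G ∧
    Nat.card (Sylow r G) % r = 1 := by
  have hr : r.Prime := Fact.out
  have hnd : ¬ r ∣ p ^ a * q ^ b := by
    intro h4
    rcases (Nat.Prime.dvd_mul hr).mp h4 with h5 | h5
    · exact hpr ((Nat.prime_dvd_prime_iff_eq hr hp).mp (hr.dvd_of_dvd_pow h5)).symm
    · exact hqr ((Nat.prime_dvd_prime_iff_eq hr hq).mp (hr.dvd_of_dvd_pow h5)).symm
  have hfac : Nat.card G = r ^ 1 * (p ^ a * q ^ b) := by rw [hcard]; ring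
  have hS : Nat.card ↥(S : Subgroup G) = r := by
    simpa using (Cfsg.Agent.Lib.Helper17.sylow_card_index S hfac hnd).1
  have hC := Cfsg.Agent.S0904.result p q r a b hp hq hpq hpr hqr hcard S
  obtain ⟨r1, r2, -⟩ := Cfsg.Agent.Lib.Helper17.sylow_prime_relIndex S hS hne
  refine ⟨hS, r1, r2, ?_, (Cfsg.Agent.Lib.Helper17.card_sylow_mem hfac hnd).2⟩
  have hCN : Subgroup.centralizer ((S : Subgroup G) : Set G) ≤ Subgroup.normalizer ((S : Subgroup G) : Set G) :=
    Subgroup.centralizer_le_normalizer _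
  have h1 := ((Subgroup.centralizer ((S : Subgroup G) : Set G)).subgroupOf
    (Subgroup.normalizer ((S : Subgroup G) : Set G))).index_mul_card
  rw [Cfsg.Agent.Lib.Helper17.card_subgroupOf_of_le hCN, ← Subgroup.relIndex] at h1
  have h2 : Nat.card ↥(Subgroup.centralizer ((S : Subgroup G) : Set G)) = r := by
    have : Subgroup.centralizer ((S : Subgroup G) : Set G) = (S : Subgroup G) := hC
    rw [this, hS]
  rw [h2] at h1
  rw [h1]
  exact Cfsg.Agent.Lib.Helper17.card_sylow_mul_card_normalizer S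

theorem one_le_sq {a : ℤ} (h : a ≠ 0) : 1 ≤ a ^ 2 := by
  have : 0 < a ^ 2 := by positivity
  omega

theorem charDegree_one : charDegree (fun _ : G => (1 : ℂ)) = 1 := by
  simp [charDegree]

end Cfsg.Agent.Lib.Helper61.BrauerPrime
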