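import Mathlib
import Cfsg.Agent.Lib.Helper61.SylowCount

/-! Groups with exactly `2 p + 1` Sylow `p`-subgroups (`p` an odd prime): structure of a
minimal such group, via Jordan's theorem (helper61). -/

set_option autoImplicit false
set_option linter.unusedSectionVars false

namespace Cfsg.Agent.Lib.Helper61.TwoP

open MulAction Subgroup Equiv.Perm
open scoped Pointwise
open Cfsg.Agent.Lib.Helper61

section Act
variable {G : Type*} [Group G] {Ω : Type*} [Fintype Ω] [DecidableEq Ω] [MulAction G Ω]
variable {p : ℕ} [hp : Fact p.Prime]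

theorem isPretransitive_of_isCycle (g : G) (hgc : (toPerm g : Equiv.Perm Ω).IsCycle) :
    IsPretransitive (fixingSubgroup G (((toPerm g : Equiv.Perm Ω).support : Set Ω)ᶜ))
      (SubMulAction.ofFixingSubgroup G (((toPerm g : Equiv.Perm Ω).support : Set Ω)ᶜ)) := by
  obtain ⟨a, _, hgc⟩ := hgc
  have hs : ∀ x : Ω, (toPerm g : Equiv.Perm Ω) x ≠ x ↔
    x ∈ SubMulAction.ofFixingSubgroup G (((toPerm g : Equiv.Perm Ω).support : Set Ω)ᶜ) := by
    intro x
    simp [SubMulAction.mem_ofFixingSubgroup_iff]
  suffices ∀ x ∈ SubMulAction.ofFixingSubgroup G (((toPerm g : Equiv.Perm Ω).support : Set Ω)ᶜ),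
      ∃ k : fixingSubgroup G (((toPerm g : Equiv.Perm Ω).support : Set Ω)ᶜ), x = k • a by
    rw [isPretransitive_iff]
    rintro ⟨x, hx⟩ ⟨y, hy⟩
    obtain ⟨k, hk⟩ := this x hx
    obtain ⟨k', hk'⟩ := this y hy
    use k' * k⁻¹
    rw [← SetLike.coe_eq_coe]
    simp only [SetLike.mk_smul_mk]
    rw [hk, hk', smul_smul, inv_mul_cancel_right]
  intro x hx
  have hg' : g ∈ fixingSubgroup G (((toPerm g : Equiv.Perm Ω).support : Set Ω)ᶜ) := by
    rw [mem_fixingSubgroup_iff G]
    intro y hy
    simpa only [Set.mem_compl_iff, Finset.mem_coe, notMem_support] using! hy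
  let g' : fixingSubgroup G (((toPerm g : Equiv.Perm Ω).support : Set Ω)ᶜ) := ⟨g, hg'⟩
  obtain ⟨i, hi⟩ := hgc ((hs x).mpr hx)
  refine ⟨g' ^ i, ?_⟩
  rw [← hi]
  have : ((toPerm g : Equiv.Perm Ω) ^ i) = toPerm (g ^ i) := by
    rw [← MulAction.toPermHom_apply, ← map_zpow]; rfl
  rw [this]; rfl

/-- Jordan: a primitive group of degree `n > p + 2` containing a `p`-cycle is 2-primitive. -/
theorem stab_prim_of_cycle (hΩ : p + 2 < Fintype.card Ω) (hprim : IsPreprimitive G Ω) (g : G)
    (hc : (toPerm g : Equiv.Perm Ω).IsCycle) (hs : (toPerm g : Equiv.Perm Ω).support.card = p)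
    (a : Ω) : IsPreprimitive (stabilizer G a) (SubMulAction.ofStabilizer G a) := by
  set s : Set Ω := (((toPerm g : Equiv.Perm Ω).support : Set Ω)ᶜ) with hsdef
  obtain ⟨m, hm⟩ : ∃ m, Fintype.card Ω = p + (m + 1) := ⟨Fintype.card Ω - p - 1, by omega⟩
  have hsn : s.ncard = m + 1 := by
    rw [hsdef, Set.ncard_compl, Set.ncard_coe_finset, hs, Nat.card_eq_fintype_card, hm]
    omega
  have hp2 := hp.out.two_le
  have hsn' : m + 2 < Nat.card Ω := by rw [Nat.card_eq_fintype_card, hm]; omega
  have htr := isPretransitive_of_isCycle g hc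
  have hcard : Nat.card (SubMulAction.ofFixingSubgroup G s) = p := by
    have : Nat.card (SubMulAction.ofFixingSubgroup G s) = (sᶜ).ncard := rfl
    rw [this, hsdef, compl_compl, Set.ncard_coe_finset, hs]
  have hpr : IsPreprimitive (fixingSubgroup G s) (SubMulAction.ofFixingSubgroup G s) :=
    IsPreprimitive.of_prime_card (by rw [hcard]; exact hp.out)
  have h2 := hprim.is_two_preprimitive hsn hsn' hpr
  rw [← is_one_preprimitive_iff]
  rw [← isMultiplyPreprimitive_succ_iff_ofStabilizer]
  · exact h2
  · norm_num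

/-- an orbit of a `p`-group contained in a set with fewer than `p` elements is a point -/
theorem fixed_of_small (P : Subgroup G) (hP : IsPGroup p P) (x : Ω) (B : Set Ω)
    (hB : orbit P x ⊆ B) (hc : B.ncard < p) : ∀ g ∈ P, g • x = x := by
  obtain ⟨n, hn⟩ := hP.card_orbit x
  have h1 : Nat.card (orbit P x) ≤ B.ncard := by
    rw [Nat.card_coe_set_eq]
    exact Set.ncard_le_ncard hB (Set.toFinite _)
  have hn0 : n = 0 := by
    by_contra h
    have : p ^ 1 ≤ p ^ n := Nat.pow_le_pow_right hp.out.pos (Nat.one_le_iff_ne_zero.mpr h)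
    rw [pow_one] at this
    omega
  rw [hn0, pow_zero, Nat.card_eq_one_iff_unique] at hn
  intro g hg
  have := hn.1.elim ⟨(⟨g, hg⟩ : P) • x, mem_orbit _ _⟩ ⟨x, mem_orbit_self _⟩
  simpa using congrArg Subtype.val this

theorem prim (hΩ : Fintype.card Ω = 2 * p + 1) [htr : IsPretransitive G Ω] (P : Subgroup G)
    (hP : IsPGroup p P) (a : Ω) (hPa : P ≤ stabilizer G a)
    (hfix : ∀ x : Ω, (∀ g ∈ P, g • x = x) → x = a) : IsPreprimitive G Ω := by
  apply IsPreprimitive.of_isTrivialBlock_base a
  intro B haB hB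
  have hdvd : B.ncard ∣ 2 * p + 1 := by
    have := hB.ncard_dvd_card ⟨a, haB⟩
    rwa [Nat.card_eq_fintype_card, hΩ] at this
  by_cases h15 : B.ncard = 2 * p + 1
  · right
    rw [Set.eq_univ_iff_ncard, h15, Nat.card_eq_fintype_card, hΩ]
  · left
    have hlt : B.ncard < p := by
      obtain ⟨m, hm⟩ := hdvd
      have hp2 := hp.out.two_le
      rcases m with _ | _ | _ | m
      · omega
      · omega
      · omega
      · have : B.ncard * (m + 1 + 1 + 1) = B.ncard * m + 3 * B.ncard := by ring
        have h0 : 0 ≤ B.ncard * m := Nat.zero_le _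
        omega
    intro x hx y hy
    have key : ∀ z ∈ B, z = a := by
      intro z hz
      apply hfix
      apply fixed_of_small P hP z B _ hlt
      rintro _ ⟨g, rfl⟩
      have hg : (g : G) • B = B := by
        apply hB.smul_eq_of_mem haB
        have : (g : G) • a = a := hPa g.2
        rw [this]
        exact haB
      rw [← hg]
      exact Set.smul_mem_smul_set (a := (g : G)) hz
    rw [key x hx, key y hy]

theorem no_cycle (hp2 : p ≠ 2) (hΩ : Fintype.card Ω = 2 * p + 1) [htr : IsPretransitive G Ω]
    (P : Subgroup G)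
    (hP : IsPGroup p P) (a : Ω) (hstab : stabilizer G a = normalizer (P : Set G))
    (hfix : ∀ x : Ω, (∀ g ∈ P, g • x = x) → x = a) (g : G)
    (hc : (toPerm g : Equiv.Perm Ω).IsCycle) (hs : (toPerm g : Equiv.Perm Ω).support.card = p) :
    False := by
  have hp2' := hp.out.two_le
  have hPa : P ≤ stabilizer G a := hstab ▸ le_normalizer
  have hprim := prim hΩ P hP a hPa hfix
  have h1 := stab_prim_of_cycle (p := p) (by omega) hprim g hc hs a
  have hN : (P.subgroupOf (stabilizer G a)).Normal := by
    rw [hstab]; exact normal_in_normalizer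
  have hcard : Nat.card (SubMulAction.ofStabilizer G a) = 2 * p := by
    have := SubMulAction.nat_card_ofStabilizer_add_one_eq G a
    rw [Nat.card_eq_fintype_card (α := Ω), hΩ] at this
    omega
  have hne : Nonempty (SubMulAction.ofStabilizer G a) := by
    apply (Nat.card_pos_iff.mp (by rw [hcard]; omega)).1
  obtain ⟨x⟩ := hne
  have hnf : fixedPoints (P.subgroupOf (stabilizer G a)) (SubMulAction.ofStabilizer G a) ≠
      Set.univ := by
    intro h
    have hx : x ∈ fixedPoints (P.subgroupOf (stabilizer G a)) (SubMulAction.ofStabilizer G a) := by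
      rw [h]; trivial
    apply x.2
    show (x : Ω) = a
    apply hfix
    intro g hg
    have := hx ⟨⟨g, hPa hg⟩, hg⟩
    exact congrArg Subtype.val this
  have htr2 := IsQuasiPreprimitive.isPretransitive_of_normal (G := stabilizer G a)
    (X := SubMulAction.ofStabilizer G a) (N := P.subgroupOf (stabilizer G a)) hnf
  have hP' : IsPGroup p (P.subgroupOf (stabilizer G a)) :=
    hP.comap_subtype
  obtain ⟨n, hn⟩ := hP'.card_orbit x
  rw [orbit_eq_univ, Nat.card_coe_set_eq, Set.ncard_univ, hcard] at hn
  have h2 : 2 ∣ p ^ n := ⟨p, hn.symm⟩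
  have h3 : 2 ∣ p := Nat.Prime.dvd_of_dvd_pow Nat.prime_two h2
  exact hp2 ((Nat.prime_dvd_prime_iff_eq Nat.prime_two hp.out).mp h3).symm

theorem card_fix_add_support (c : G) :
    Fintype.card {x : Ω // c • x = x} + (toPerm c : Equiv.Perm Ω).support.card =
      Fintype.card Ω := by
  rw [Fintype.card_subtype]
  have : (toPerm c : Equiv.Perm Ω).support = Finset.univ.filter (fun x : Ω => ¬ c • x = x) := by
    ext x; simp
  rw [this]
  exact Finset.card_filter_add_card_filter_not _

theorem fix_mod (c z : G) (hcz : Commute c z) (hz : z ^ p = 1) (R : Ω)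
    (hR : ∀ x : Ω, z • x = x ↔ x = R) : Fintype.card {x : Ω // c • x = x} ≡ 1 [MOD p] := by
  have hcR : c • R = R := by
    rw [← hR, smul_smul, ← hcz.eq, mul_smul, (hR R).mpr rfl]
  let f : Function.End {x : Ω // c • x = x} := fun x =>
    ⟨z • x.1, by rw [smul_smul, hcz.eq, mul_smul, x.2]⟩
  have hfn : ∀ (n : ℕ) (x : {x : Ω // c • x = x}), ((f ^ n) x).1 = z ^ n • x.1 := by
    intro n
    induction n with
    | zero => intro x; rw [pow_zero, pow_zero, one_smul]; rfl
    | succ n ih =>
      intro x
      rw [pow_succ']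
      show z • ((f ^ n) x).1 = _
      rw [ih, smul_smul, ← pow_succ']
  have hf : f ^ p ^ 1 = 1 := by
    funext x
    apply Subtype.ext
    rw [pow_one, hfn, hz, one_smul]; rfl
  have h1 := Equiv.Perm.card_fixedPoints_modEq (p := p) (n := 1) hf
  have h2 : Fintype.card (Function.fixedPoints f) = 1 := by
    rw [Fintype.card_eq_one_iff]
    refine ⟨⟨⟨R, hcR⟩, ?_⟩, ?_⟩
    · show f _ = _
      apply Subtype.ext
      exact (hR R).mpr rfl
    · rintro ⟨⟨y, hy⟩, hy'⟩
      apply Subtype.ext
      apply Subtype.ext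
      show y = R
      rw [← hR]
      exact congrArg Subtype.val hy'
  rw [h2] at h1
  exact h1

/-- The situation of a group acting faithfully on its `2p+1` Sylow `p`-subgroups. -/
structure Setup (p : ℕ) (G : Type*) [Group G] (Ω : Type*) [Fintype Ω] [MulAction G Ω]
    (P : Subgroup G) (a : Ω) : Prop where
  card : Fintype.card Ω = 2 * p + 1
  faithful : FaithfulSMul G Ω
  trans : IsPretransitive G Ω
  pgroup : IsPGroup p P
  stab : stabilizer G a = normalizer (P : Set G)
  fix : ∀ x : Ω, (∀ g ∈ P, g • x = x) → x = a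

variable {P : Subgroup G} {a : Ω}

theorem orderOf_toPerm (h : Setup p G Ω P a) (z : G) :
    orderOf (toPerm z : Equiv.Perm Ω) = orderOf z := by
  have := h.faithful
  exact orderOf_injective (toPermHom G Ω) toPerm_injective z

theorem Setup.support_card (hp2 : p ≠ 2) (h : Setup p G Ω P a) (z : G) (hz : orderOf z = p) :
    (toPerm z : Equiv.Perm Ω).support.card = 2 * p := by
  have ho := orderOf_toPerm h z
  rw [hz] at ho
  obtain ⟨n, hn⟩ := cycleType_prime_order (σ := (toPerm z : Equiv.Perm Ω))
    (by rw [ho]; exact hp.out)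
  have hsum := sum_cycleType (toPerm z : Equiv.Perm Ω)
  rw [hn, ho, Multiset.sum_replicate, smul_eq_mul] at hsum
  have hle : (toPerm z : Equiv.Perm Ω).support.card ≤ 2 * p + 1 := by
    rw [← h.card]; exact Finset.card_le_univ _
  have hp2' := hp.out.two_le
  rcases n with _ | _ | n
  · exfalso
    have := h.trans
    apply no_cycle hp2 h.card P h.pgroup a h.stab h.fix z
    · rw [← card_cycleType_eq_one, hn]; simp
    · omega
  · omega
  · exfalso
    have : (n + 1 + 1 + 1) * p = n * p + 3 * p := by ring
    have h0 : 0 ≤ n * p := Nat.zero_le _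
    omega

theorem Setup.exists_unique_fix (hp2 : p ≠ 2) (h : Setup p G Ω P a) (z : G) (hz : orderOf z = p) :
    ∃ R : Ω, ∀ x : Ω, z • x = x ↔ x = R := by
  have h1 := card_fix_add_support (Ω := Ω) z
  rw [h.support_card hp2 z hz, h.card] at h1
  have h2 : Fintype.card {x : Ω // z • x = x} = 1 := by omega
  rw [Fintype.card_eq_one_iff] at h2
  obtain ⟨⟨R, hR⟩, hR'⟩ := h2
  refine ⟨R, fun x => ⟨fun hx => ?_, fun hx => hx ▸ hR⟩⟩
  exact congrArg Subtype.val (hR' ⟨x, hx⟩)

theorem Setup.eq_one_of_fix [Finite G] (hp2 : p ≠ 2) (h : Setup p G Ω P a) (z : G)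
    (hz : orderOf z = p) (c : G)
    (hcz : Commute c z) (Q R : Ω) (hQR : Q ≠ R) (hQ : c • Q = Q) (hR : c • R = R) : c = 1 := by
  by_contra hc
  have hoc : orderOf c ≠ 1 := fun h' => hc (orderOf_eq_one_iff.mp h')
  set r := (orderOf c).minFac with hr
  have hrp : r.Prime := Nat.minFac_prime hoc
  set w := c ^ (orderOf c / r) with hw
  have how : orderOf w = r :=
    orderOf_pow_orderOf_div (orderOf_pos c).ne' (Nat.minFac_dvd _)
  have hwz : Commute w z := hcz.pow_left _
  have hfixpow : ∀ (x : Ω), c • x = x → w • x = x := by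
    intro x hx
    rw [hw]
    generalize orderOf c / r = m
    induction m with
    | zero => simp
    | succ m ih => rw [pow_succ, mul_smul, hx, ih]
  obtain ⟨R0, hR0⟩ := h.exists_unique_fix hp2 z hz
  have hzp : z ^ p = 1 := by rw [← hz]; exact pow_orderOf_eq_one z
  have hmod := fix_mod (p := p) w z hwz hzp R0 hR0
  have hge : 1 < Fintype.card {x : Ω // w • x = x} := by
    rw [Fintype.one_lt_card_iff_nontrivial]
    exact ⟨⟨Q, hfixpow Q hQ⟩, ⟨R, hfixpow R hR⟩, fun h' => hQR (congrArg Subtype.val h')⟩
  have hsum0 := card_fix_add_support (Ω := Ω) w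
  rw [h.card] at hsum0
  have ho := orderOf_toPerm h w
  rw [how] at ho
  obtain ⟨n, hn⟩ := cycleType_prime_order (σ := (toPerm w : Equiv.Perm Ω)) (by rw [ho]; exact hrp)
  have hsum := sum_cycleType (toPerm w : Equiv.Perm Ω)
  rw [hn, ho, Multiset.sum_replicate, smul_eq_mul] at hsum
  have hpos : 0 < (n + 1) * r := Nat.mul_pos (Nat.succ_pos _) hrp.pos
  have hp2' := hp.out.two_le
  -- number of fixed points is 1 + p * j
  obtain ⟨j, hj⟩ : ∃ j, Fintype.card {x : Ω // w • x = x} = 1 + p * j := by
    have := (Nat.modEq_iff_dvd' hge.le).mp hmod.symm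
    obtain ⟨j, hj⟩ := this
    exact ⟨j, by omega⟩
  have h7 : (n + 1) * r = p := by
    rcases j with _ | _ | _ | j
    · omega
    · omega
    · omega
    · exfalso
      have : p * (j + 1 + 1 + 1) = p * j + 3 * p := by ring
      have h0 : 0 ≤ p * j := Nat.zero_le _
      omega
  have hr7 : r = p := by
    have : r ∣ p := ⟨n + 1, by rw [← h7]; ring⟩
    exact (Nat.prime_dvd_prime_iff_eq hrp hp.out).mp this
  have := h.support_card hp2 w (by rw [how, hr7])
  omega

/-- Sylow subgroup of order exactly `r`. -/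
theorem card_sylow_eq_prime {G : Type*} [Group G] [Finite G] {r m : ℕ} [Fact r.Prime]
    (hG : Nat.card G = r * m) (hm : ¬ r ∣ m) (S : Sylow r G) : Nat.card S = r := by
  have hr : r.Prime := Fact.out
  have hm0 : m ≠ 0 := fun h => hm (h ▸ dvd_zero r)
  rw [Sylow.card_eq_multiplicity, hG, Nat.factorization_mul hr.ne_zero hm0]
  simp [hr.factorization_self, Nat.factorization_eq_zero_of_not_dvd hm]

/-- an involution with exactly one fixed point on `2p+1` points is odd -/
theorem sign_of_invol (hp2 : p ≠ 2) (h : Setup p G Ω P a) (t : G) (ht : orderOf t = 2)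
    (hs : (toPerm t : Equiv.Perm Ω).support.card = 2 * p) :
    Equiv.Perm.sign (toPerm t : Equiv.Perm Ω) = -1 := by
  have ho := orderOf_toPerm h t
  rw [ht] at ho
  obtain ⟨n, hn⟩ := cycleType_prime_order (σ := (toPerm t : Equiv.Perm Ω)) (by rw [ho]; norm_num)
  have hsum := sum_cycleType (toPerm t : Equiv.Perm Ω)
  rw [hn, ho, Multiset.sum_replicate, smul_eq_mul, hs] at hsum
  have hn6 : n + 1 = p := by omega
  have hodd : Odd p := hp.out.odd_of_ne_two hp2
  rw [sign_of_cycleType, hn, ho, hn6, Multiset.sum_replicate, Multiset.card_replicate, smul_eq_mul]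
  have : Odd (p * 2 + p) := by
    obtain ⟨k, hk⟩ := hodd
    exact ⟨3 * k + 1, by omega⟩
  exact this.neg_one_pow

/-- Main structural dichotomy. -/
theorem Setup.structure [Finite G] (hp2 : p ≠ 2) (S : Sylow p G)
    (h : Setup p G Ω (S : Subgroup G) a) :
    (∃ K : Subgroup G, K.Normal ∧ K ≠ ⊤ ∧ K.index.Coprime p) ∨
    (Nat.card S = p ∧ Nat.card (centralizer ((S : Subgroup G) : Set G)) = p ∧
      Nat.card (normalizer ((S : Subgroup G) : Set G)) * (2 * p + 1) = Nat.card G) := by
  have hfa := h.faithful
  have htr := h.trans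
  have hp2' := hp.out.two_le
  -- a second point
  obtain ⟨Q, hQa⟩ : ∃ Q : Ω, Q ≠ a := by
    have : 1 < Fintype.card Ω := by rw [h.card]; omega
    exact Fintype.exists_ne_of_one_lt_card this a
  -- S is nontrivial
  have hSnt : Nontrivial S := by
    by_contra hnt
    rw [not_nontrivial_iff_subsingleton] at hnt
    apply hQa
    apply h.fix
    intro g hg
    have : (⟨g, hg⟩ : S) = 1 := Subsingleton.elim _ _
    have hg1 : g = 1 := congrArg Subtype.val this
    rw [hg1, one_smul]
  -- central element of order p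
  have hcnt : Nontrivial (center S) := S.2.center_nontrivial
  have hc7 : p ∣ Nat.card (center S) := by
    have hpc : IsPGroup p (center S) := S.2.to_subgroup _
    obtain ⟨k, hk⟩ := hpc.exists_card_eq
    rcases k with _ | k
    · exfalso
      rw [pow_zero, Nat.card_eq_one_iff_unique] at hk
      exact not_subsingleton _ hk.1
    · rw [hk, pow_succ]; exact dvd_mul_left _ _
  obtain ⟨z', hz'⟩ := exists_prime_orderOf_dvd_card' p hc7
  set z : G := ((z' : S) : G) with hzdef
  have hz : orderOf z = p := by
    rw [hzdef, Subgroup.orderOf_coe, Subgroup.orderOf_coe, hz']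
  have hzS : z ∈ (S : Subgroup G) := (z' : S).2
  have hSz : ∀ g ∈ (S : Subgroup G), Commute g z := by
    intro g hg
    have := (Subgroup.mem_center_iff.mp z'.2) ⟨g, hg⟩
    exact congrArg Subtype.val this
  have hSa : (S : Subgroup G) ≤ stabilizer G a := h.stab ▸ le_normalizer
  have hza : z • a = a := hSa hzS
  obtain ⟨R0, hR0⟩ := h.exists_unique_fix hp2 z hz
  have hR0a : R0 = a := ((hR0 a).mp hza).symm
  subst hR0a
  -- centralizer of z
  set C : Subgroup G := centralizer {z} with hC
  have hCz : ∀ c ∈ C, Commute c z := by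
    intro c hc
    exact (Subgroup.mem_centralizer_singleton_iff.mp hc)
  have hCa : ∀ c ∈ C, c • R0 = R0 := by
    intro c hc
    rw [← hR0, smul_smul, ← (hCz c hc).eq, mul_smul, hza]
  have hinj : Function.Injective (fun c : C => (⟨(c : G) • Q, by
      intro h'
      apply hQa
      have : (c : G) • Q = (c : G) • R0 := by rw [hCa c c.2]; exact h'
      exact MulAction.injective _ this⟩ : {x : Ω // x ≠ R0})) := by
    intro c d hcd
    have h1 : (c : G) • Q = (d : G) • Q := congrArg Subtype.val hcd
    have h2 : ((d : G)⁻¹ * c) • Q = Q := by rw [mul_smul, h1, inv_smul_smul]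
    have h3 : ((d : G)⁻¹ * c) ∈ C := C.mul_mem (C.inv_mem d.2) c.2
    have h4 := h.eq_one_of_fix hp2 z hz _ (hCz _ h3) Q R0 hQa h2 (hCa _ h3)
    apply Subtype.ext
    exact (inv_mul_eq_one.mp h4).symm
  have hCle : Nat.card C ≤ 2 * p := by
    have := Nat.card_le_card_of_injective _ hinj
    have h2 : Nat.card {x : Ω // x ≠ R0} = 2 * p := by
      rw [Nat.card_eq_fintype_card, Fintype.card_subtype_compl, h.card]
      simp
    omega
  have hzC : z ∈ C := Subgroup.mem_centralizer_singleton_iff.mpr rfl
  have h7C : p ∣ Nat.card C := by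
    have := orderOf_dvd_natCard (⟨z, hzC⟩ : C)
    rwa [← Subgroup.orderOf_coe, hz] at this
  have hCpos : 0 < Nat.card C := Nat.card_pos
  have hSC : (S : Subgroup G) ≤ C := fun g hg =>
    Subgroup.mem_centralizer_singleton_iff.mpr (hSz g hg).eq
  have hC714 : Nat.card C = p ∨ Nat.card C = 2 * p := by
    obtain ⟨k, hk⟩ := h7C
    rcases k with _ | _ | _ | k
    · omega
    · left; omega
    · right; omega
    · exfalso
      have : p * (k + 1 + 1 + 1) = p * k + 3 * p := by ring
      have h0 : 0 ≤ p * k := Nat.zero_le _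
      omega
  rcases hC714 with hC7 | hC14
  · -- C = S has order p
    right
    have hS7 : Nat.card S = p := by
      have h1 : Nat.card S ∣ p := (Subgroup.card_dvd_of_le hSC).trans (dvd_of_eq hC7)
      rcases (Nat.dvd_prime hp.out).mp h1 with h1 | h1
      · exfalso
        rw [Nat.card_eq_one_iff_unique] at h1
        exact not_subsingleton _ h1.1
      · exact h1
    set CS : Subgroup G := centralizer ((S : Subgroup G) : Set G) with hCS
    have hCSC : CS ≤ C := Subgroup.centralizer_le (by
      intro x hx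
      rw [Set.mem_singleton_iff] at hx
      rw [hx]; exact hzS)
    have hzCS : z ∈ CS := by
      rw [hCS, Subgroup.mem_centralizer_iff]
      intro g hg
      exact (hSz g hg).eq
    have hCS7 : Nat.card CS = p := by
      have h1 : Nat.card CS ∣ p := (Subgroup.card_dvd_of_le hCSC).trans (dvd_of_eq hC7)
      have h2 : p ∣ Nat.card CS := by
        have := orderOf_dvd_natCard (⟨z, hzCS⟩ : CS)
        rwa [← Subgroup.orderOf_coe, hz] at this
      exact Nat.dvd_antisymm h1 h2
    refine ⟨hS7, hCS7, ?_⟩
    have hG1 : Nat.card (stabilizer G R0) * (stabilizer G R0).index = Nat.card G :=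
      Subgroup.card_mul_index _
    rw [MulAction.index_stabilizer_of_transitive, Nat.card_eq_fintype_card (α := Ω), h.card,
      h.stab] at hG1
    exact hG1
  · -- an involution in C is an odd permutation
    left
    have : Fact (Nat.Prime 2) := ⟨by norm_num⟩
    obtain ⟨t', ht'⟩ := exists_prime_orderOf_dvd_card' (G := C) 2 (by rw [hC14]; exact dvd_mul_right _ _)
    set t : G := (t' : G) with htdef
    have ht : orderOf t = 2 := by rw [htdef, Subgroup.orderOf_coe, ht']
    have htC : t ∈ C := t'.2
    have ht1 : t ≠ 1 := by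
      intro h'; rw [h', orderOf_one] at ht; omega
    have hfix1 : Fintype.card {x : Ω // t • x = x} = 1 := by
      rw [Fintype.card_eq_one_iff]
      refine ⟨⟨R0, hCa t htC⟩, ?_⟩
      rintro ⟨y, hy⟩
      apply Subtype.ext
      show y = R0
      by_contra hne
      exact ht1 (h.eq_one_of_fix hp2 z hz t (hCz t htC) y R0 hne hy (hCa t htC))
    have hsupp : (toPerm t : Equiv.Perm Ω).support.card = 2 * p := by
      have := card_fix_add_support (Ω := Ω) t
      rw [hfix1, h.card] at this
      omega
    have hsign := sign_of_invol hp2 h t ht hsupp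
    let ε : G →* ℤˣ := Equiv.Perm.sign.comp (toPermHom G Ω)
    refine ⟨ε.ker, inferInstance, ?_, ?_⟩
    · intro h'
      have : t ∈ ε.ker := by rw [h']; trivial
      rw [MonoidHom.mem_ker] at this
      have h2 : ε t = -1 := hsign
      rw [h2] at this
      exact absurd this (by decide)
    · have h1 : ε.ker.index ∣ 2 := by
        rw [Subgroup.index_ker]
        have := Subgroup.card_subgroup_dvd_card ε.range
        rwa [Nat.card_eq_fintype_card (α := ℤˣ), Fintype.card_units_int] at this
      apply Nat.Coprime.coprime_dvd_left h1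
      exact (Nat.coprime_primes Nat.prime_two hp.out).mpr (Ne.symm hp2)

end Act

/-- Reduction principle: to show that no finite group has exactly `2p+1` Sylow `p`-subgroups it is
enough to find, in every group `G` with `|S| = |C_G(S)| = p` and `|G| = (2p+1)|N_G(S)|`, a proper
normal subgroup of index prime to `p`. -/
theorem card_sylow_ne.{u} {p : ℕ} [hp : Fact p.Prime] (hp2 : p ≠ 2)
    (H : ∀ (G : Type u) [Group G] [Finite G] (S : Sylow p G), Nat.card S = p →
      Nat.card (centralizer ((S : Subgroup G) : Set G)) = p →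
      Nat.card (normalizer ((S : Subgroup G) : Set G)) * (2 * p + 1) = Nat.card G →
      ∃ K : Subgroup G, K.Normal ∧ K ≠ ⊤ ∧ K.index.Coprime p) (n : ℕ) :
    ∀ (G : Type u) [Group G] [Finite G], Nat.card G = n → Nat.card (Sylow p G) ≠ 2 * p + 1 := by
  induction n using Nat.strong_induction_on with
  | _ n ih =>
    intro G _ _ hn h15
    classical
    let _ : Fintype (Sylow p G) := Fintype.ofFinite _
    set K0 : Subgroup G := (toPermHom G (Sylow p G)).ker with hK0
    have hK0n : ∀ P : Sylow p G, K0 ≤ normalizer ((P : Subgroup G) : Set G) := by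
      intro P g hg
      have : toPermHom G (Sylow p G) g = 1 := hg
      have h2 : g • P = P := congrArg (fun σ : Equiv.Perm (Sylow p G) => σ P) this
      exact Sylow.smul_eq_iff_mem_normalizer.mp h2
    by_cases hbot : K0 = ⊥
    · -- faithful
      have hfa : FaithfulSMul G (Sylow p G) := by
        refine ⟨fun {g₁ g₂} h => ?_⟩
        have : toPermHom G (Sylow p G) g₁ = toPermHom G (Sylow p G) g₂ := by
          ext P : 1; exact h P
        exact (MonoidHom.ker_eq_bot_iff _).mp hbot this
      let S : Sylow p G := default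
      have hset : Setup p G (Sylow p G) (S : Subgroup G) S :=
        { card := by rw [← Nat.card_eq_fintype_card]; exact h15
          faithful := hfa
          trans := inferInstance
          pgroup := S.2
          stab := Sylow.stabilizer_eq_normalizer S
          fix := by
            intro x hx
            have h1 : x ∈ fixedPoints (S : Subgroup G) (Sylow p G) := fun g => hx g g.2
            have h2 := (S.2.sylow_mem_fixedPoints_iff).mp h1
            exact Sylow.ext (S.3 x.2 h2) }
      obtain ⟨K, hK1, hK2, hK3⟩ : ∃ K : Subgroup G, K.Normal ∧ K ≠ ⊤ ∧ K.index.Coprime p := by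
        rcases Setup.structure hp2 S hset with h | ⟨h1, h2, h3⟩
        · exact h
        · exact H G S h1 h2 h3
      have hlt : Nat.card K < n := by
        rw [← hn]
        have h1 := Subgroup.card_mul_index K
        have h2 : K.index ≠ 1 := fun h => hK2 (Subgroup.index_eq_one.mp h)
        have h3 : K.index ≠ 0 := Subgroup.index_ne_zero_of_finite
        have h4 : 0 < Nat.card K := Nat.card_pos
        nlinarith [Nat.two_le_iff K.index |>.mpr ⟨h3, h2⟩]
      exact ih _ hlt K rfl ((card_sylow_of_normal_of_coprime_index K hK3).trans h15)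
    · have hlt : Nat.card (G ⧸ K0) < n := by
        rw [← hn, ← Subgroup.index_eq_card]
        have h1 := Subgroup.card_mul_index K0
        have h2 : Nat.card K0 ≠ 1 := fun h => hbot (Subgroup.card_eq_one.mp h)
        have h3 : K0.index ≠ 0 := Subgroup.index_ne_zero_of_finite
        have h4 : 0 < Nat.card K0 := Nat.card_pos
        have h5 : 2 ≤ Nat.card K0 := by omega
        have h6 : 0 < K0.index := Nat.pos_of_ne_zero h3
        nlinarith
      exact ih _ hlt (G ⧸ K0) rfl ((card_sylow_quotient K0 hK0n).trans h15)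

/-- If `|S| = |C_G(S)| = p` is odd, `N_G(S)` has odd index and even order, then `G` has a normal
2-complement (its Sylow 2-subgroups are cyclic). -/
theorem exists_normal_of_even {G : Type*} [Group G] [Finite G] {p : ℕ} [hp : Fact p.Prime]
    (hp2 : p ≠ 2) (S : Sylow p G) (hS : Nat.card S = p)
    (hC : Nat.card (centralizer ((S : Subgroup G) : Set G)) = p) (m : ℕ) (hm : ¬ 2 ∣ m)
    (hG : Nat.card (normalizer ((S : Subgroup G) : Set G)) * m = Nat.card G)
    (h2 : 2 ∣ Nat.card G) :
    ∃ K : Subgroup G, K.Normal ∧ K ≠ ⊤ ∧ K.index.Coprime p := by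
  have : Fact (Nat.Prime 2) := ⟨Nat.prime_two⟩
  set N := normalizer ((S : Subgroup G) : Set G) with hN
  set CS := centralizer ((S : Subgroup G) : Set G) with hCS
  let φ := (S : Subgroup G).normalizerMonoidHom
  have hker : φ.ker = CS.subgroupOf N := normalizerMonoidHom_ker _
  have hcyc : IsCyclic S := isCyclic_of_prime_card hS
  have hcycA : IsCyclic (MulAut S) := by
    have e := hcyc.mulAutMulEquiv (G := S)
    rw [hS] at e
    exact isCyclic_of_injective e.toMonoidHom e.injective
  let T0 : Sylow 2 N := default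
  have hinj : Function.Injective (φ.comp (T0 : Subgroup N).subtype) := by
    rw [injective_iff_map_eq_one]
    intro t ht
    have h1 : (t : N) ∈ φ.ker := ht
    rw [hker] at h1
    have h3 : orderOf ((t : N) : G) ∣ p := by
      have := orderOf_dvd_natCard (⟨((t : N) : G), h1⟩ : CS)
      rwa [hC, ← Subgroup.orderOf_coe] at this
    obtain ⟨i, hi⟩ := (T0.2 t)
    have h4 : orderOf ((t : N) : G) ∣ 2 ^ i := by
      rw [Subgroup.orderOf_coe, Subgroup.orderOf_coe]
      exact orderOf_dvd_of_pow_eq_one hi
    have hcop : Nat.Coprime p (2 ^ i) :=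
      ((Nat.coprime_primes hp.out Nat.prime_two).mpr hp2).pow_right i
    have h5 : orderOf ((t : N) : G) = 1 := Nat.eq_one_of_dvd_coprimes hcop h3 h4
    rw [Subgroup.orderOf_coe, Subgroup.orderOf_coe, orderOf_eq_one_iff] at h5
    exact h5
  have hT0 : IsCyclic T0 := isCyclic_of_injective _ hinj
  set T1 : Subgroup G := (T0 : Subgroup N).map N.subtype with hT1
  have e1 : (T0 : Subgroup N) ≃* T1 := (T0 : Subgroup N).equivMapOfInjective _ N.subtype_injective
  have hm0 : m ≠ 0 := fun h => hm (h ▸ dvd_zero 2)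
  have hcardT1 : Nat.card T1 = 2 ^ (Nat.card G).factorization 2 := by
    rw [← Nat.card_congr e1.toEquiv, Sylow.card_eq_multiplicity, ← hG,
      Nat.factorization_mul Nat.card_pos.ne' hm0]
    simp [Nat.factorization_eq_zero_of_not_dvd hm]
  let T : Sylow 2 G := Sylow.ofCard T1 hcardT1
  have hT : IsCyclic T := by
    have : IsCyclic T1 := isCyclic_of_surjective e1.toMonoidHom e1.surjective
    exact this
  have hmin : (Nat.card G).minFac = 2 := (Nat.minFac_eq_two_iff _).mpr h2
  have hcompl := IsCyclic.isComplement' hmin hT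
  refine ⟨(MonoidHom.transferSylow T (hT.normalizer_le_centralizer hmin)).ker, inferInstance, ?_, ?_⟩
  rotate_left
  · rw [hcompl.symm.index_eq_card]
    show (Nat.card T1).Coprime p
    rw [hcardT1]
    exact ((Nat.coprime_primes Nat.prime_two hp.out).mpr (Ne.symm hp2)).pow_left _
  · intro htop
    have h1 := hcompl.symm.index_eq_card
    rw [htop, Subgroup.index_top] at h1
    have h3 : Nat.card T1 = 1 := h1.symm
    rw [hcardT1] at h3
    have h4 : (Nat.card G).factorization 2 ≠ 0 := by
      have := (Nat.prime_two.dvd_iff_one_le_factorization Nat.card_pos.ne').mp h2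
      omega
    exact h4 (by
      by_contra h5
      have : 2 ^ 1 ≤ 2 ^ (Nat.card G).factorization 2 :=
        Nat.pow_le_pow_right (by norm_num) (Nat.one_le_iff_ne_zero.mpr h5)
      omega)

/-- `|N_G(S)| = p k` with `k ∣ p - 1` when `|S| = |C_G(S)| = p`. -/
theorem card_normalizer {G : Type*} [Group G] [Finite G] {p : ℕ} [hp : Fact p.Prime]
    (S : Sylow p G) (hS : Nat.card S = p)
    (hC : Nat.card (centralizer ((S : Subgroup G) : Set G)) = p) :
    ∃ k, k ∣ p - 1 ∧ Nat.card (normalizer ((S : Subgroup G) : Set G)) = p * k := by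
  have hcyc : IsCyclic S := isCyclic_of_prime_card hS
  have key := card_dvd_of_injective _
    (QuotientGroup.kerLift_injective (S : Subgroup G).normalizerMonoidHom)
  rw [normalizerMonoidHom_ker, ← index, ← relIndex, hcyc.card_mulAut, hS,
    Nat.totient_prime hp.out] at key
  refine ⟨_, key, ?_⟩
  have := Subgroup.relIndex_mul_relIndex ⊥ (centralizer ((S : Subgroup G) : Set G))
    (normalizer ((S : Subgroup G) : Set G)) bot_le (Subgroup.centralizer_le_normalizer _)
  rw [Subgroup.relIndex_bot_left, Subgroup.relIndex_bot_left, hC] at this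
  exact this.symm

end Cfsg.Agent.Lib.Helper61.TwoP
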