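import Mathlib
import Cfsg.Prelude.Def_Sz

/-!
# Elements of the Suzuki group fixing a nonzero vector are 2-elements (helper61)

For `A ∈ Sp₄(F)` (char 2) with `A* = A^θ` the characteristic polynomial is
`X⁴ + c₁ X³ + c₁^θ X² + c₁ X + 1`; a fixed vector forces `c₁^θ = 0`, hence `A⁴ = 1`.
-/

set_option autoImplicit false

namespace Cfsg.Agent.Lib.Helper61

open Matrix Polynomial

universe u

section CommRing

variable {F : Type u} [CommRing F]

/-- the `2 × 2` minor on rows `k, l` and columns `i, j` -/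
def m2 (A : Matrix (Fin 4) (Fin 4) F) (k l i j : Fin 4) : F := A k i * A l j - A l i * A k j

/-- the sum of the principal `2 × 2` minors -/
def c2 (A : Matrix (Fin 4) (Fin 4) F) : F :=
  m2 A 0 1 0 1 + m2 A 0 2 0 2 + m2 A 0 3 0 3 + m2 A 1 2 1 2 + m2 A 1 3 1 3 + m2 A 2 3 2 3

theorem charpoly4 (A : Matrix (Fin 4) (Fin 4) F) :
    A.charpoly = X ^ 4 - C A.trace * X ^ 3 + C (c2 A) * X ^ 2 - C (A.adjugate.trace) * X + C A.det := by
  rw [Matrix.charpoly, Matrix.det_succ_row_zero, Matrix.det_succ_row_zero A]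
  simp only [Matrix.trace, Matrix.diag, Matrix.adjugate_fin_succ_eq_det_submatrix, Fin.sum_univ_four, Matrix.det_fin_three, c2, m2,
    Matrix.submatrix_apply, Matrix.charmatrix_apply, Matrix.diagonal_apply]
  simp [Fin.succAbove]
  ring

/-- the antidiagonal matrix -/
def J4 : Matrix (Fin 4) (Fin 4) F := !![0, 0, 0, 1; 0, 0, 1, 0; 0, 1, 0, 0; 1, 0, 0, 0]

theorem J4_mul_J4 : (J4 : Matrix (Fin 4) (Fin 4) F) * J4 = 1 := by
  ext i j
  fin_cases i <;> fin_cases j <;> simp [J4, Matrix.mul_apply, Fin.sum_univ_four]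

/-- column relations -/
def colB (A : Matrix (Fin 4) (Fin 4) F) (i j : Fin 4) : F :=
  A 0 i * A 3 j + A 1 i * A 2 j + A 2 i * A 1 j + A 3 i * A 0 j

/-- row relations -/
def rowB (A : Matrix (Fin 4) (Fin 4) F) (k l : Fin 4) : F :=
  A k 0 * A l 3 + A k 1 * A l 2 + A k 2 * A l 1 + A k 3 * A l 0

theorem transpose_J4_mul_apply (A : Matrix (Fin 4) (Fin 4) F) (i j : Fin 4) :
    (Aᵀ * (J4 : Matrix (Fin 4) (Fin 4) F) * A) i j = colB A i j := by
  simp [J4, Matrix.mul_apply, Fin.sum_univ_four, colB]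
  ring

theorem mul_J4_transpose_apply (A : Matrix (Fin 4) (Fin 4) F) (k l : Fin 4) :
    (A * (J4 : Matrix (Fin 4) (Fin 4) F) * Aᵀ) k l = rowB A k l := by
  simp [J4, Matrix.mul_apply, Fin.sum_univ_four, rowB]
  ring

theorem inv_of_sp {A : Matrix (Fin 4) (Fin 4) F} (h : Aᵀ * J4 * A = J4) :
    A * (J4 * Aᵀ * J4) = 1 := by
  rw [mul_eq_one_comm]
  calc J4 * Aᵀ * J4 * A = J4 * (Aᵀ * J4 * A) := by simp only [Matrix.mul_assoc]
    _ = 1 := by rw [h, J4_mul_J4]

theorem row_of_col {A : Matrix (Fin 4) (Fin 4) F} (h : Aᵀ * J4 * A = J4) :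
    A * J4 * Aᵀ = J4 := by
  calc A * J4 * Aᵀ = A * (J4 * Aᵀ * J4) * J4 := by
        simp only [Matrix.mul_assoc, J4_mul_J4, Matrix.mul_one]
    _ = J4 := by rw [inv_of_sp h, Matrix.one_mul]

/-- Cauchy–Binet modulo the symplectic relations, in characteristic 2 -/
theorem m2_mul (h2 : (2 : F) = 0) (A B : Matrix (Fin 4) (Fin 4) F) (k l i j : Fin 4)
    (hA : rowB A k l = 0) (hB : colB B i j = 0) :
    m2 (A * B) k l i j = m2 A k l 0 1 * m2 B 0 1 i j + m2 A k l 0 2 * m2 B 0 2 i j +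
      m2 A k l 1 3 * m2 B 1 3 i j + m2 A k l 2 3 * m2 B 2 3 i j := by
  simp only [rowB, colB] at hA hB
  simp only [m2, Matrix.mul_apply, Fin.sum_univ_four]
  linear_combination (B 0 i * B 3 j - B 3 i * B 0 j) * hA + (A k 1 * A l 2 - A l 1 * A k 2) * hB -
    ((A l 0 * A k 3 + A l 1 * A k 2) * (B 0 i * B 3 j - B 3 i * B 0 j) +
      (A k 1 * A l 2 - A l 1 * A k 2) * (B 0 i * B 3 j - B 3 i * B 0 j) +
      (A k 1 * A l 2 - A l 1 * A k 2) * (B 3 i * B 0 j + B 2 i * B 1 j)) * h2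

theorem star4_apply (A : Matrix (Fin 4) (Fin 4) F) (p r : Fin 4) :
    Cfsg.Lie.star4 A p r =
      m2 A (Cfsg.Lie.pairOf p).1 (Cfsg.Lie.pairOf p).2 (Cfsg.Lie.pairOf r).1 (Cfsg.Lie.pairOf r).2 := rfl

theorem J4_pairOf (p : Fin 4) :
    (J4 : Matrix (Fin 4) (Fin 4) F) (Cfsg.Lie.pairOf p).1 (Cfsg.Lie.pairOf p).2 = 0 := by
  fin_cases p <;> simp [J4, Cfsg.Lie.pairOf]

theorem star4_mul (h2 : (2 : F) = 0) {A B : Matrix (Fin 4) (Fin 4) F}
    (hA : Aᵀ * J4 * A = J4) (hB : Bᵀ * J4 * B = J4) :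
    Cfsg.Lie.star4 (A * B) = Cfsg.Lie.star4 A * Cfsg.Lie.star4 B := by
  ext p r
  rw [star4_apply, m2_mul h2 A B]
  · rw [Matrix.mul_apply, Fin.sum_univ_four]
    simp only [star4_apply]
    simp [Cfsg.Lie.pairOf]
  · rw [← mul_J4_transpose_apply, row_of_col hA, J4_pairOf]
  · rw [← transpose_J4_mul_apply, hB, J4_pairOf]

theorem star4_one : Cfsg.Lie.star4 (1 : Matrix (Fin 4) (Fin 4) F) = 1 := by
  ext p r
  rw [star4_apply]
  revert p r
  simp [Fin.forall_fin_succ, m2, Cfsg.Lie.pairOf, Matrix.one_apply]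

theorem trace_star4 (h2 : (2 : F) = 0) {A : Matrix (Fin 4) (Fin 4) F}
    (hA : Aᵀ * J4 * A = J4) : (Cfsg.Lie.star4 A).trace = c2 A := by
  have h1 : colB A 0 3 = 1 := by
    rw [← transpose_J4_mul_apply, hA]; simp [J4]
  have h3 : rowB A 1 2 = 1 := by
    rw [← mul_J4_transpose_apply, row_of_col hA]; simp [J4]
  simp only [colB, rowB] at h1 h3
  simp only [Matrix.trace, Matrix.diag, Fin.sum_univ_four, star4_apply, c2]
  simp only [Cfsg.Lie.pairOf, m2]
  simp
  linear_combination (-1 : F) * h1 - h3 - (1 - A 1 0 * A 2 3 - A 2 0 * A 1 3 - A 3 0 * A 0 3 - A 1 2 * A 2 1) * h2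

end CommRing

section Field

variable {F : Type u} [Field F]

theorem eq_one_of_sq_eq_one (h2 : (2 : F) = 0) {x : F} (hx : x ^ 2 = 1) : x = 1 := by
  have : (x - 1) ^ 2 = 0 := by linear_combination hx - (x - 1) * h2
  have := (pow_eq_zero_iff two_ne_zero).mp this
  linear_combination this

theorem det_of_sp (h2 : (2 : F) = 0) {A : Matrix (Fin 4) (Fin 4) F} (hA : Aᵀ * J4 * A = J4) :
    A.det = 1 := by
  have hJ : (J4 : Matrix (Fin 4) (Fin 4) F).det = 1 := by
    apply eq_one_of_sq_eq_one h2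
    rw [pow_two, ← Matrix.det_mul, J4_mul_J4, Matrix.det_one]
  apply eq_one_of_sq_eq_one h2
  have := congrArg Matrix.det hA
  rw [Matrix.det_mul, Matrix.det_mul, Matrix.det_transpose, hJ] at this
  linear_combination this

theorem trace_adjugate_of_sp (h2 : (2 : F) = 0) {A : Matrix (Fin 4) (Fin 4) F}
    (hA : Aᵀ * J4 * A = J4) : A.adjugate.trace = A.trace := by
  have h1 : A.adjugate = J4 * Aᵀ * J4 := by
    calc A.adjugate = A.adjugate * (A * (J4 * Aᵀ * J4)) := by rw [inv_of_sp hA, Matrix.mul_one]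
      _ = (A.adjugate * A) * (J4 * Aᵀ * J4) := by simp only [Matrix.mul_assoc]
      _ = J4 * Aᵀ * J4 := by rw [Matrix.adjugate_mul, det_of_sp h2 hA, one_smul, Matrix.one_mul]
  rw [h1, Matrix.trace_mul_comm, ← Matrix.mul_assoc, J4_mul_J4, Matrix.one_mul,
    Matrix.trace_transpose]

/-- **Key lemma**: a symplectic `A` with `A* = A^θ` fixing a nonzero vector satisfies `A⁴ = 1`. -/
theorem pow_four_eq_one_of_fix [CharP F 2] (n : ℕ) {A : Matrix (Fin 4) (Fin 4) F}
    (hA : Aᵀ * J4 * A = J4) (hstar : Cfsg.Lie.star4 A = A.map (fun x => x ^ 2 ^ n))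
    (v : Fin 4 → F) (hv : v ≠ 0) (hAv : A *ᵥ v = v) : A ^ 4 = 1 := by
  have h2 : (2 : F) = 0 := by
    have := CharP.cast_eq_zero F 2
    exact_mod_cast this
  have hdet := det_of_sp h2 hA
  have hadj := trace_adjugate_of_sp h2 hA
  have hcp := charpoly4 A
  rw [hdet, hadj] at hcp
  -- evaluate at 1
  have h0 : (Matrix.scalar (Fin 4) (1 : F) - A).det = 0 := by
    rw [← Matrix.exists_mulVec_eq_zero_iff]
    refine ⟨v, hv, ?_⟩
    rw [Matrix.sub_mulVec, hAv]
    simp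
  rw [← Matrix.eval_charpoly, hcp] at h0
  simp only [eval_add, eval_sub, eval_mul, eval_pow, eval_X, eval_C, one_pow, mul_one] at h0
  have hc2 : c2 A = 0 := by linear_combination h0 + (A.trace - 1) * h2
  -- the trace
  have htr : A.trace ^ 2 ^ n = 0 := by
    have h3 : (A.map (fun x => x ^ 2 ^ n)).trace = A.trace ^ 2 ^ n := by
      simp only [Matrix.trace, Matrix.diag, Matrix.map_apply]
      rw [sum_pow_char_pow]
    rw [← h3, ← hstar, trace_star4 h2 hA, hc2]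
  have htr0 : A.trace = 0 := by
    exact (pow_eq_zero_iff (by positivity)).mp htr
  rw [htr0, hc2] at hcp
  have hCH := Matrix.aeval_self_charpoly A
  rw [hcp] at hCH
  simp only [map_zero, zero_mul, sub_zero, add_zero, map_add, map_pow, aeval_X, map_one] at hCH
  rw [eq_neg_of_add_eq_zero_left hCH, CharTwo.neg_eq]

end Field

end Cfsg.Agent.Lib.Helper61
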